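import Cfsg.Agent.Elusive.TwoByTwo
import Cfsg.Agent.S0245
import Cfsg.Agent.Linear.Orders
import Cfsg.Prelude.Def_Classical

/-!
Elements of `Sp_4`: the pair of planes `SL_2 × SL_2` and Kronecker products `M ⊗ h`.
-/

set_option autoImplicit false
set_option maxHeartbeats 400000

namespace Cfsg.Agent.FusionSimple.SpF

open Matrix
open scoped MatrixGroups

variable {F : Type*} [Field F]

local notation "Sp4" => Matrix.symplecticGroup (Fin 2) F

/-- The matrix acting as `a` on the first hyperbolic plane and as `b` on the second. -/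
def pairM (a b : Matrix (Fin 2) (Fin 2) F) : Matrix (Fin 2 ⊕ Fin 2) (Fin 2 ⊕ Fin 2) F :=
  Matrix.fromBlocks (diagonal ![a 0 0, b 0 0]) (diagonal ![a 0 1, b 0 1])
    (diagonal ![a 1 0, b 1 0]) (diagonal ![a 1 1, b 1 1])

/-- The Kronecker product `M ⊗ h`. -/
def kron (M h : Matrix (Fin 2) (Fin 2) F) : Matrix (Fin 2 ⊕ Fin 2) (Fin 2 ⊕ Fin 2) F :=
  Matrix.fromBlocks (M 0 0 • h) (M 0 1 • h) (M 1 0 • h) (M 1 1 • h)

/-- The exchange matrix. -/
def swapP : Matrix (Fin 2) (Fin 2) F := !![0, 1; 1, 0]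

/-- The sign matrix. -/
def signD : Matrix (Fin 2) (Fin 2) F := !![1, 0; 0, -1]

theorem kron_mul (M N h k : Matrix (Fin 2) (Fin 2) F) : kron M h * kron N k = kron (M * N) (h * k) := by
  simp [kron, Matrix.fromBlocks_multiply, Matrix.mul_apply, Fin.sum_univ_two, add_smul, smul_smul, mul_comm]

theorem kron_one : kron (1 : Matrix (Fin 2) (Fin 2) F) 1 = 1 := by
  rw [← Matrix.fromBlocks_one]
  simp [kron]

theorem kron_neg_left (M h : Matrix (Fin 2) (Fin 2) F) : kron (-M) h = -kron M h := by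
  simp [kron, Matrix.fromBlocks_neg]

theorem kron_neg_right (M h : Matrix (Fin 2) (Fin 2) F) : kron M (-h) = -kron M h := by
  simp [kron, Matrix.fromBlocks_neg]

theorem kron_smul (c : F) (M h : Matrix (Fin 2) (Fin 2) F) : kron (c • M) h = kron M (c • h) := by
  simp [kron, smul_smul, mul_comm]

theorem pairM_self (a : Matrix (Fin 2) (Fin 2) F) : pairM a a = kron a 1 := by
  simp only [pairM, kron, Matrix.smul_one_eq_diagonal]
  congr 1 <;> congr 1 <;> funext i <;> fin_cases i <;> rfl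

theorem pairM_neg_self (a : Matrix (Fin 2) (Fin 2) F) : pairM a (-a) = kron a signD := by
  simp only [pairM, kron]
  congr 1 <;> ext i j <;> fin_cases i <;> fin_cases j <;> simp [signD]

theorem kron_mem {M h : Matrix (Fin 2) (Fin 2) F} {c : F} (hh : h * hᵀ = c • 1) (hc : M.det * c = 1) :
    kron M h ∈ Sp4 := by
  rw [Matrix.det_fin_two] at hc
  have e1 : (-(M 0 1 * M 0 0 * c) + M 0 0 * M 0 1 * c) = 0 := by ring
  rw [SymplecticGroup.mem_iff, kron, Matrix.J, Matrix.fromBlocks_transpose, Matrix.fromBlocks_multiply,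
    Matrix.fromBlocks_multiply]
  simp only [Matrix.mul_zero, Matrix.mul_one, Matrix.mul_neg, zero_add, add_zero, Matrix.neg_mul,
    Matrix.transpose_smul, Matrix.mul_smul, Matrix.smul_mul, hh, smul_smul, ← neg_smul, ← add_smul]
  rw [show (1 : Matrix (Fin 2) (Fin 2) F) = (1 : F) • 1 from (one_smul _ _).symm]
  simp only [← neg_smul, smul_smul, mul_one]
  congr 1
  · rw [← zero_smul F (1 : Matrix (Fin 2) (Fin 2) F)]; congr 1; ring
  · congr 1; linear_combination -hc
  · congr 1; linear_combination hc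
  · rw [← zero_smul F (1 : Matrix (Fin 2) (Fin 2) F)]; congr 1; ring

theorem pairM_mem {a b : Matrix (Fin 2) (Fin 2) F} (ha : a.det = 1) (hb : b.det = 1) : pairM a b ∈ Sp4 := by
  rw [Matrix.det_fin_two] at ha hb
  rw [SymplecticGroup.mem_iff, pairM, Matrix.J, Matrix.fromBlocks_transpose, Matrix.fromBlocks_multiply,
    Matrix.fromBlocks_multiply]
  simp only [Matrix.mul_zero, Matrix.mul_one, Matrix.mul_neg, zero_add, add_zero, Matrix.neg_mul,
    Matrix.diagonal_transpose, Matrix.diagonal_mul_diagonal, Matrix.diagonal_neg, Matrix.diagonal_add]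
  congr 1
  · rw [← Matrix.diagonal_zero]; congr 1; funext i; fin_cases i <;> simp <;> ring
  · rw [← Matrix.diagonal_one, Matrix.diagonal_neg]; congr 1; funext i
    fin_cases i <;> simp
    · linear_combination -ha
    · linear_combination -hb
  · rw [← Matrix.diagonal_one]; congr 1; funext i
    fin_cases i <;> simp
    · linear_combination ha
    · linear_combination hb
  · rw [← Matrix.diagonal_zero]; congr 1; funext i; fin_cases i <;> simp <;> ring

theorem pairM_mul (a b c d : Matrix (Fin 2) (Fin 2) F) : pairM a b * pairM c d = pairM (a * c) (b * d) := by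
  simp only [pairM, Matrix.fromBlocks_multiply, Matrix.diagonal_mul_diagonal, Matrix.diagonal_add]
  congr 1 <;> congr 1 <;> funext i <;> fin_cases i <;> simp [Matrix.mul_apply, Fin.sum_univ_two]

theorem kronP_mul_pairM (a b : Matrix (Fin 2) (Fin 2) F) :
    kron 1 swapP * pairM a b = pairM b a * kron 1 swapP := by
  simp only [pairM, kron, Matrix.fromBlocks_multiply]
  congr 1 <;> ext i j <;> fin_cases i <;> fin_cases j <;>
    simp [swapP, Matrix.vecMul, dotProduct, Matrix.mul_apply, Fin.sum_univ_two, Matrix.diagonal, Matrix.vecHead, Matrix.vecTail]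

/-- The pair of planes as a homomorphism. -/
def pairHom : SL(2, F) × SL(2, F) →* Sp4 where
  toFun u := ⟨pairM (u.1 : Matrix (Fin 2) (Fin 2) F) u.2, pairM_mem u.1.det_coe u.2.det_coe⟩
  map_one' := Subtype.ext (by
    show pairM ((1 : SL(2, F)) : Matrix (Fin 2) (Fin 2) F) (1 : SL(2, F)) = 1
    rw [Matrix.SpecialLinearGroup.coe_one, pairM_self, kron_one])
  map_mul' u v := Subtype.ext (by
    show pairM ((u.1 * v.1 : SL(2, F)) : Matrix (Fin 2) (Fin 2) F) (u.2 * v.2 : SL(2, F)) = _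
    rw [Matrix.SpecialLinearGroup.coe_mul, Matrix.SpecialLinearGroup.coe_mul, ← pairM_mul]
    rfl)

/-- The exchange of the two planes. -/
def swapE : Sp4 := ⟨kron 1 swapP, kron_mem (c := 1) (by
    ext i j; fin_cases i <;> fin_cases j <;> simp [swapP, Matrix.mul_apply, Fin.sum_univ_two]) (by simp)⟩

theorem pairHom_coe (u : SL(2, F) × SL(2, F)) :
    ((pairHom u : Sp4) : Matrix (Fin 2 ⊕ Fin 2) (Fin 2 ⊕ Fin 2) F) = pairM u.1 u.2 := rfl

theorem swapE_mul_pairHom (a b : SL(2, F)) : swapE * pairHom (a, b) = pairHom (b, a) * swapE :=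
  Subtype.ext (kronP_mul_pairM _ _)

theorem swapE_sq : (swapE : Sp4) * swapE = 1 := by
  apply Subtype.ext
  show kron 1 swapP * kron 1 swapP = 1
  rw [kron_mul, one_mul, show swapP * swapP = (1 : Matrix (Fin 2) (Fin 2) F) by
    ext i j; fin_cases i <;> fin_cases j <;> simp [swapP, Matrix.mul_apply, Fin.sum_univ_two], kron_one]

theorem swapE_inv : (swapE : Sp4)⁻¹ = swapE := inv_eq_of_mul_eq_one_right swapE_sq

theorem pairHom_injective : Function.Injective (pairHom (F := F)) := by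
  rintro ⟨a, b⟩ ⟨c, d⟩ h
  have h' := congrArg Subtype.val h
  rw [pairHom_coe, pairHom_coe] at h'
  obtain ⟨h1, h2, h3, h4⟩ := Matrix.fromBlocks_inj.1 h'
  have e1 := Matrix.diagonal_injective h1
  have e2 := Matrix.diagonal_injective h2
  have e3 := Matrix.diagonal_injective h3
  have e4 := Matrix.diagonal_injective h4
  refine Prod.ext (Subtype.ext ?_) (Subtype.ext ?_)
  · ext i j
    fin_cases i <;> fin_cases j
    exacts [congrFun e1 0, congrFun e2 0, congrFun e3 0, congrFun e4 0]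
  · ext i j
    fin_cases i <;> fin_cases j
    exacts [congrFun e1 1, congrFun e2 1, congrFun e3 1, congrFun e4 1]

theorem swapE_ne_pairHom (u : SL(2, F) × SL(2, F)) : (swapE : Sp4) ≠ pairHom u := by
  intro h
  have h' := congrArg (fun x : Sp4 => (x : Matrix (Fin 2 ⊕ Fin 2) (Fin 2 ⊕ Fin 2) F) (Sum.inl 0) (Sum.inl 1)) h
  simp [swapE, pairHom_coe, pairM, kron, swapP] at h'

/-- An element commuting with the sign element preserves both planes. -/
theorem mem_range_of_commute (h2 : (2 : F) ≠ 0) {g : Sp4}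
    (h : g * pairHom (1, -1) = pairHom (1, -1) * g) : g ∈ (pairHom (F := F)).range := by
  obtain ⟨A, hA⟩ := g
  have hT : ((pairHom ((1 : SL(2, F)), (-1 : SL(2, F))) : Sp4) : Matrix _ _ F) = kron 1 signD := by
    rw [pairHom_coe]
    show pairM ((1 : SL(2, F)) : Matrix (Fin 2) (Fin 2) F) ((-1 : SL(2, F)) : Matrix (Fin 2) (Fin 2) F) = _
    rw [Matrix.SpecialLinearGroup.coe_neg, Matrix.SpecialLinearGroup.coe_one, pairM_neg_self]
  have hc : A * kron 1 signD = kron 1 signD * A := by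
    rw [← hT]; exact congrArg Subtype.val h
  rw [← Matrix.fromBlocks_toBlocks A, kron, Matrix.fromBlocks_multiply, Matrix.fromBlocks_multiply] at hc
  simp at hc
  obtain ⟨c1, c2, c3, c4⟩ := hc
  have off : ∀ B : Matrix (Fin 2) (Fin 2) F, B * signD = signD * B → B 0 1 = 0 ∧ B 1 0 = 0 := by
    intro B hB
    have a1 := congrFun (congrFun hB 0) 1
    have a2 := congrFun (congrFun hB 1) 0
    simp [signD, Matrix.mul_apply, Fin.sum_univ_two] at a1 a2
    exact ⟨mul_left_cancel₀ h2 (by linear_combination -a1), mul_left_cancel₀ h2 (by linear_combination a2)⟩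
  have blocks : ∀ B : Matrix (Fin 2) (Fin 2) F, B * signD = signD * B → B = diagonal ![B 0 0, B 1 1] := by
    intro B hB
    obtain ⟨b1, b2⟩ := off B hB
    ext i j; fin_cases i <;> fin_cases j <;> simp [b1, b2]
  let a : Matrix (Fin 2) (Fin 2) F := !![A.toBlocks₁₁ 0 0, A.toBlocks₁₂ 0 0; A.toBlocks₂₁ 0 0, A.toBlocks₂₂ 0 0]
  let b : Matrix (Fin 2) (Fin 2) F := !![A.toBlocks₁₁ 1 1, A.toBlocks₁₂ 1 1; A.toBlocks₂₁ 1 1, A.toBlocks₂₂ 1 1]
  have hAeq : A = pairM a b := by
    conv_lhs => rw [← Matrix.fromBlocks_toBlocks A, blocks _ c1, blocks _ c2, blocks _ c3, blocks _ c4]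
    simp [pairM, a, b]
  have hdet : a.det = 1 ∧ b.det = 1 := by
    have hs := SymplecticGroup.mem_iff.1 hA
    rw [hAeq, pairM, Matrix.J, Matrix.fromBlocks_transpose, Matrix.fromBlocks_multiply,
      Matrix.fromBlocks_multiply] at hs
    simp only [Matrix.mul_zero, Matrix.mul_one, Matrix.mul_neg, zero_add, add_zero, Matrix.neg_mul,
      Matrix.diagonal_transpose, Matrix.diagonal_mul_diagonal, Matrix.diagonal_neg, Matrix.diagonal_add,
      Matrix.fromBlocks_inj] at hs
    have h0 := congrFun (congrFun hs.2.2.1 0) 0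
    have h1 := congrFun (congrFun hs.2.2.1 1) 1
    simp at h0 h1
    rw [Matrix.det_fin_two, Matrix.det_fin_two]
    exact ⟨by linear_combination h0, by linear_combination h1⟩
  exact ⟨(⟨a, hdet.1⟩, ⟨b, hdet.2⟩), Subtype.ext hAeq.symm⟩

theorem exists_card_eq [Fintype F] (hodd : Fintype.card F % 2 = 1) :
    ∃ m : ℕ, Odd m ∧ Nat.card Sp4 = 2 * Nat.card SL(2, F) ^ 2 * m := by
  obtain ⟨r, hr⟩ : 2 ∣ Fintype.card F ^ 2 + 1 := by
    rw [Nat.dvd_iff_mod_eq_zero, Nat.add_mod, Nat.pow_mod, hodd]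
  refine ⟨Fintype.card F ^ 2 * r, ?_, ?_⟩
  · refine (Nat.odd_iff.2 hodd).pow.mul (Nat.odd_iff.2 ?_)
    obtain ⟨j, hj⟩ : ∃ j, Fintype.card F = 2 * j + 1 := ⟨Fintype.card F / 2, by omega⟩
    have : Fintype.card F ^ 2 = 4 * (j * j + j) + 1 := by rw [hj]; ring
    omega
  · rw [Cfsg.Agent.S0245.result rfl 2, Linear.card_SL_two, Finset.prod_range_succ, Finset.prod_range_one]
    obtain ⟨m, hm⟩ : ∃ m, Fintype.card F = m + 1 := ⟨Fintype.card F - 1, by have := Fintype.card_pos (α := F); omega⟩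
    rw [hm] at hr ⊢
    rw [show (m + 1) ^ (2 * (0 + 1)) - 1 = m * (m + 2) from Nat.sub_eq_of_eq_add (by ring),
      show (m + 1) ^ (2 * (1 + 1)) - 1 = m * (m + 2) * ((m + 1) ^ 2 + 1) from Nat.sub_eq_of_eq_add (by ring),
      hr]
    simp only [Nat.add_sub_cancel]
    ring

end Cfsg.Agent.FusionSimple.SpF
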