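import Cfsg.Agent.FusionSimple.SpFourBasic
import Cfsg.Agent.FusionSimple.SpFourQuat
import Cfsg.Agent.FusionCrit.Normalizer
import Cfsg.Agent.S0246

/-!
The `2`-fusion system of `PSp_4(q)`, `q` odd, is simple.
-/

set_option autoImplicit false
set_option maxHeartbeats 400000

open Cfsg Cfsg.FusionSystem Matrix
open scoped MatrixGroups

namespace Cfsg.Agent.FusionSimple.SpF

variable {F : Type*} [Field F]

local notation "Sp4" => Matrix.symplecticGroup (Fin 2) F

theorem pairHom_neg_coe : ((pairHom ((-1 : SL(2, F)), (-1 : SL(2, F))) : Sp4) :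
    Matrix (Fin 2 ⊕ Fin 2) (Fin 2 ⊕ Fin 2) F) = -1 := by
  rw [pairHom_coe, Matrix.SpecialLinearGroup.coe_neg, Matrix.SpecialLinearGroup.coe_one, pairM_self,
    kron_neg_left, kron_one]

theorem pairHom_neg_comm (g : Sp4) :
    g * pairHom ((-1 : SL(2, F)), (-1 : SL(2, F))) = pairHom ((-1 : SL(2, F)), (-1 : SL(2, F))) * g := by
  apply Subtype.ext
  show (g : Matrix (Fin 2 ⊕ Fin 2) (Fin 2 ⊕ Fin 2) F) * ((pairHom _ : Sp4) : Matrix (Fin 2 ⊕ Fin 2) (Fin 2 ⊕ Fin 2) F) = ((pairHom _ : Sp4) : Matrix (Fin 2 ⊕ Fin 2) (Fin 2 ⊕ Fin 2) F) * g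
  rw [pairHom_neg_coe, mul_neg, neg_mul, mul_one, one_mul]

/-- `M ⊗ h`-elements conjugating the distinguished elements into each other. -/
theorem exists_conj_swap (h2 : (2 : F) ≠ 0) :
    ∃ y : Sp4, y * swapE = pairHom (1, -1) * y := by
  have hh : (!![1, 1; 1, -1] : Matrix (Fin 2) (Fin 2) F) * !![1, 1; 1, -1]ᵀ = (2 : F) • 1 := by
    ext i j; fin_cases i <;> fin_cases j <;> simp [Matrix.mul_apply, Fin.sum_univ_two] <;> norm_num
  have hd : (!![(2 : F)⁻¹, 0; 0, 1] : Matrix (Fin 2) (Fin 2) F).det * 2 = 1 := by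
    simp [Matrix.det_fin_two, h2]
  refine ⟨⟨_, kron_mem hh hd⟩, Subtype.ext ?_⟩
  show kron _ _ * kron 1 swapP = ((pairHom _ : Sp4) : Matrix (Fin 2 ⊕ Fin 2) (Fin 2 ⊕ Fin 2) F) * kron _ _
  rw [pairHom_coe, Matrix.SpecialLinearGroup.coe_neg, Matrix.SpecialLinearGroup.coe_one, pairM_neg_self,
    kron_mul, kron_mul, mul_one, one_mul]
  congr 1
  ext i j; fin_cases i <;> fin_cases j <;> simp [swapP, signD, Matrix.mul_apply, Fin.sum_univ_two]

/-- The twisting element `(i - j) ⊗ h`. -/
theorem exists_twist (h2 : (2 : F) ≠ 0) {i j : SL(2, F)} (hii : i * i = -1) (hjj : j * j = -1)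
    (hji : j * i = -(i * j)) :
    ∃ (x : Sp4) (θ : SL(2, F) →* SL(2, F)), θ i = -j ∧ θ j = -i ∧
      (∀ a, x * pairHom (a, a) = pairHom (θ a, θ a) * x) ∧
      x ^ 4 = pairHom ((-1 : SL(2, F)), (-1 : SL(2, F))) ∧
      x * pairHom (1, -1) = swapE * x ∧
      x * swapE = pairHom ((-1 : SL(2, F)), (-1 : SL(2, F))) * pairHom (1, -1) * x := by
  set I := (i : Matrix (Fin 2) (Fin 2) F)
  set J := (j : Matrix (Fin 2) (Fin 2) F)
  have cII : I * I = -1 := by rw [← Matrix.SpecialLinearGroup.coe_mul, hii]; simp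
  have cJJ : J * J = -1 := by rw [← Matrix.SpecialLinearGroup.coe_mul, hjj]; simp
  have cJI : J * I = -(I * J) := by
    rw [← Matrix.SpecialLinearGroup.coe_mul, hji]; simp [I, J]
  set M := I - J with hM
  have hMM : M * M = (-2 : F) • 1 := by
    rw [hM, Matrix.sub_mul, Matrix.mul_sub, Matrix.mul_sub, cII, cJJ, cJI, sub_neg_eq_add, neg_smul,
      two_smul]
    abel
  have hdet : M.det = 2 := by
    have hch := Elusive.mul_self_two M
    rw [hMM] at hch
    have e00 := congrFun (congrFun hch 0) 0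
    have e01 := congrFun (congrFun hch 0) 1
    have e10 := congrFun (congrFun hch 1) 0
    have e11 := congrFun (congrFun hch 1) 1
    simp at e00 e01 e10 e11
    by_cases htr : M 0 0 + M 1 1 = 0
    · rw [htr, zero_mul, zero_sub] at e00
      linear_combination e00
    · exfalso
      have h01 : M 0 1 = 0 := e01.resolve_left htr
      have h10 : M 1 0 = 0 := e10.resolve_left htr
      have hsc : ∀ r s, M r s = (M 0 0 • (1 : Matrix (Fin 2) (Fin 2) F)) r s := by
        have h11 : M 1 1 = M 0 0 := by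
          have : (M 0 0 + M 1 1) * (M 1 1 - M 0 0) = 0 := by linear_combination e00 - e11
          exact sub_eq_zero.1 ((mul_eq_zero.1 this).resolve_left htr)
        intro r s; fin_cases r <;> fin_cases s <;> simp [h01, h10, h11]
      -- a scalar `i - j` makes `i` and `j` commute
      have hMs : M = M 0 0 • (1 : Matrix (Fin 2) (Fin 2) F) := Matrix.ext hsc
      have hc : J * I = I * J := by
        have hI : I = J + M 0 0 • (1 : Matrix (Fin 2) (Fin 2) F) := by rw [← hMs, hM]; abel
        rw [hI, Matrix.mul_add, Matrix.add_mul, Matrix.mul_smul, Matrix.smul_mul, Matrix.mul_one, Matrix.one_mul]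
      rw [cJI, neg_eq_iff_add_eq_zero] at hc
      have h0 : I * J = 0 := by
        ext r s
        have := congrFun (congrFun hc r) s
        simp at this
        rw [Matrix.zero_apply]
        exact mul_left_cancel₀ h2 (show (2 : F) * (I * J) r s = 2 * 0 by linear_combination this)
      have := congrArg Matrix.det h0
      rw [Matrix.det_mul, i.det_coe, j.det_coe, Matrix.det_zero, one_mul] at this
      exact one_ne_zero this
  have hMu : M * ((-(2 : F)⁻¹) • M) = 1 := by
    rw [Matrix.mul_smul, hMM, smul_smul, show -(2 : F)⁻¹ * -2 = 1 by field_simp, one_smul]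
  have hMu' : ((-(2 : F)⁻¹) • M) * M = 1 := by
    rw [Matrix.smul_mul, hMM, smul_smul, show -(2 : F)⁻¹ * -2 = 1 by field_simp, one_smul]
  let θ : SL(2, F) →* SL(2, F) :=
    { toFun := fun a => ⟨M * a * ((-(2 : F)⁻¹) • M), by
        rw [Matrix.det_mul, Matrix.det_mul, a.det_coe, mul_one, ← Matrix.det_mul, hMu, Matrix.det_one]⟩
      map_one' := Subtype.ext (by
        show M * ((1 : SL(2, F)) : Matrix (Fin 2) (Fin 2) F) * _ = _
        rw [Matrix.SpecialLinearGroup.coe_one, Matrix.mul_one, hMu])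
      map_mul' := fun a b => Subtype.ext (by
        show M * ((a * b : SL(2, F)) : Matrix (Fin 2) (Fin 2) F) * _ = _ * _
        rw [Matrix.SpecialLinearGroup.coe_mul]
        simp only [← Matrix.mul_assoc]
        rw [Matrix.mul_assoc (M * (a : Matrix (Fin 2) (Fin 2) F)) ((-(2 : F)⁻¹) • M) M, hMu', Matrix.mul_one]) }
  have hθ : ∀ a : SL(2, F), ((θ a : SL(2, F)) : Matrix (Fin 2) (Fin 2) F) * M = M * a := fun a => by
    show M * a * ((-(2 : F)⁻¹) • M) * M = _
    rw [Matrix.mul_assoc, hMu', Matrix.mul_one]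
  have hθeq : ∀ a b : SL(2, F), M * (a : Matrix (Fin 2) (Fin 2) F) = (b : Matrix (Fin 2) (Fin 2) F) * M →
      θ a = b := fun a b h => Subtype.ext (by
    show M * a * ((-(2 : F)⁻¹) • M) = _
    rw [h, Matrix.mul_assoc, hMu, Matrix.mul_one])
  set h := (2 : F)⁻¹ • (!![1, -1; 1, 1] : Matrix (Fin 2) (Fin 2) F) with hh'
  have hh : h * hᵀ = (2 : F)⁻¹ • 1 := by
    ext r s; fin_cases r <;> fin_cases s <;> simp [hh', Matrix.mul_apply, Fin.sum_univ_two] <;> field_simp <;> ring
  let x : Sp4 := ⟨kron M h, kron_mem hh (by rw [hdet, mul_inv_cancel₀ h2])⟩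
  refine ⟨x, θ, hθeq _ _ ?_, hθeq _ _ ?_, fun a => Subtype.ext ?_, Subtype.ext ?_, Subtype.ext ?_, Subtype.ext ?_⟩
  · show (I - J) * I = ((-j : SL(2, F)) : Matrix (Fin 2) (Fin 2) F) * (I - J)
    rw [Matrix.SpecialLinearGroup.coe_neg, Matrix.sub_mul, Matrix.mul_sub, Matrix.neg_mul, Matrix.neg_mul, cII,
      cJI, cJJ]
    abel
  · show (I - J) * J = ((-i : SL(2, F)) : Matrix (Fin 2) (Fin 2) F) * (I - J)
    rw [Matrix.SpecialLinearGroup.coe_neg, Matrix.sub_mul, Matrix.mul_sub, Matrix.neg_mul, Matrix.neg_mul, cII,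
      cJJ]
    abel
  · show kron M h * pairM a a = pairM (θ a) (θ a) * kron M h
    rw [pairM_self, pairM_self, kron_mul, kron_mul, mul_one, one_mul, hθ]
  · show ((x ^ 4 : Sp4) : Matrix (Fin 2 ⊕ Fin 2) (Fin 2 ⊕ Fin 2) F) = _
    rw [pairHom_neg_coe, SubmonoidClass.coe_pow, show (4 : ℕ) = 2 * 2 from rfl, pow_mul, pow_two, pow_two,
      show ((x : Sp4) : Matrix (Fin 2 ⊕ Fin 2) (Fin 2 ⊕ Fin 2) F) = kron M h from rfl, kron_mul, hMM, kron_smul, kron_mul, one_mul]
    rw [show (-2 : F) • (h * h) * ((-2 : F) • (h * h)) = -1 by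
      ext r s; fin_cases r <;> fin_cases s <;>
        simp [hh', Matrix.mul_apply, Fin.sum_univ_two] <;> field_simp <;> ring, kron_neg_right, kron_one]
  · show kron M h * pairM ((1 : SL(2, F)) : Matrix (Fin 2) (Fin 2) F) ((-1 : SL(2, F)) : Matrix (Fin 2) (Fin 2) F) =
      kron 1 swapP * kron M h
    rw [Matrix.SpecialLinearGroup.coe_neg, Matrix.SpecialLinearGroup.coe_one, pairM_neg_self, kron_mul, kron_mul,
      mul_one, one_mul]
    congr 1
    ext r s; fin_cases r <;> fin_cases s <;> simp [hh', swapP, signD, Matrix.mul_apply, Fin.sum_univ_two]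
  · show kron M h * kron 1 swapP = ((pairHom _ : Sp4) : Matrix (Fin 2 ⊕ Fin 2) (Fin 2 ⊕ Fin 2) F) * ((pairHom _ : Sp4) : Matrix (Fin 2 ⊕ Fin 2) (Fin 2 ⊕ Fin 2) F) * kron M h
    rw [pairHom_neg_coe, pairHom_coe, Matrix.SpecialLinearGroup.coe_neg, Matrix.SpecialLinearGroup.coe_one,
      pairM_neg_self, neg_one_mul, Matrix.neg_mul, kron_mul, kron_mul, mul_one, one_mul, ← kron_neg_right]
    congr 1
    ext r s; fin_cases r <;> fin_cases s <;> simp [hh', swapP, signD, Matrix.mul_apply, Fin.sum_univ_two]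

section Abstract

/-- Simplicity, for any copy of `PSp_4(q)` with the Sylow subgroup given by a Sylow subgroup of `SL_2(q)`. -/
theorem isSimple_of_hom [Fintype F] {G : Type*} [Group G] [Finite G]
    (ρ : Matrix.symplecticGroup (Fin 2) F →* G) (hodd : Odd (Fintype.card F)) (hρs : Function.Surjective ρ)
    (hker : ∀ g, ρ g = 1 ↔ g = 1 ∨ g = pairHom ((-1 : SL(2, F)), (-1 : SL(2, F))))
    (Q : Sylow 2 SL(2, F)) (S : Sylow 2 G)
    (hS : ∀ x, x ∈ (S : Subgroup G) ↔ ∃ u ∈ (Q : Subgroup SL(2, F)), ∃ v ∈ (Q : Subgroup SL(2, F)),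
      x = ρ (pairHom (u, v)) ∨ x = ρ (pairHom (u, v) * swapE)) :
    (groupFusionSystem (S : Subgroup G)).IsSimple 2 := by
  classical
  haveI : Fact (Nat.Prime 2) := ⟨Nat.prime_two⟩
  have h2 := Linear.two_ne_zero_of_odd_card hodd
  obtain ⟨d, hd⟩ := normalizer_cases hodd Q
  let η : SL(2, F) × SL(2, F) →* G := ρ.comp pairHom
  set σ := ρ swapE with hσ
  set τ := η (1, -1) with hτ
  have hσσ : σ * σ = 1 := by rw [hσ, ← map_mul, swapE_sq, map_one]
  have hσi : σ⁻¹ = σ := inv_eq_of_mul_eq_one_right hσσ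
  have hneg : η (-1, -1) = 1 := (hker _).2 (Or.inr rfl)
  have hση : ∀ a b, σ * η (a, b) = η (b, a) * σ := fun a b => by
    show ρ swapE * ρ (pairHom (a, b)) = ρ (pairHom (b, a)) * ρ swapE
    rw [← map_mul, ← map_mul, swapE_mul_pairHom]
  have hσc : ∀ a b, σ * η (a, b) * σ⁻¹ = η (b, a) := fun a b => by rw [hση, mul_inv_cancel_right]
  have heq : ∀ a b c e, η (a, b) = η (c, e) → (a = c ∧ b = e) ∨ (a = -c ∧ b = -e) := by
    intro a b c e h
    have h1 : ρ ((pairHom (c, e))⁻¹ * pairHom (a, b)) = 1 := by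
      rw [map_mul, map_inv]; exact inv_mul_eq_one.2 h.symm
    rcases (hker _).1 h1 with h' | h'
    · exact Or.inl (Prod.mk.injEq _ _ _ _ ▸ pairHom_injective (inv_mul_eq_one.1 h').symm)
    · rw [inv_mul_eq_iff_eq_mul, ← map_mul, Prod.mk_mul_mk, mul_neg, mul_neg, mul_one, mul_one] at h'
      exact Or.inr (Prod.mk.injEq _ _ _ _ ▸ pairHom_injective h')
  have hno : ∀ a b c e, η (a, b) ≠ η (c, e) * σ := by
    intro a b c e h
    have h1 : ρ ((pairHom (a, b))⁻¹ * (pairHom (c, e) * swapE)) = 1 := by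
      rw [map_mul, map_inv, map_mul]; exact inv_mul_eq_one.2 h
    have h3 : pairHom (a, b) = pairHom (c, e) * swapE ∨
        pairHom (c, e) * swapE = pairHom (a, b) * pairHom ((-1 : SL(2, F)), (-1 : SL(2, F))) := by
      rcases (hker _).1 h1 with h' | h'
      · exact Or.inl (inv_mul_eq_one.1 h')
      · exact Or.inr (inv_mul_eq_iff_eq_mul.1 h')
    rcases h3 with h' | h'
    · exact swapE_ne_pairHom ((c, e)⁻¹ * (a, b)) (by rw [map_mul, map_inv, h', inv_mul_cancel_left])
    · exact swapE_ne_pairHom ((c, e)⁻¹ * ((a, b) * (-1, -1)))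
        (by rw [map_mul, map_inv, map_mul, ← h', inv_mul_cancel_left])
  have hSmem : ∀ x, x ∈ (S : Subgroup G) ↔ ∃ u ∈ (Q : Subgroup SL(2, F)), ∃ v ∈ (Q : Subgroup SL(2, F)),
      x = η (u, v) ∨ x = η (u, v) * σ := fun x => by
    rw [hS]
    refine exists_congr fun u => and_congr_right fun _ => exists_congr fun v => and_congr_right fun _ => ?_
    rw [map_mul]; rfl
  have hηS : ∀ u ∈ (Q : Subgroup SL(2, F)), ∀ v ∈ (Q : Subgroup SL(2, F)), η (u, v) ∈ (S : Subgroup G) :=
    fun u hu v hv => (hSmem _).2 ⟨u, hu, v, hv, Or.inl rfl⟩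
  have hησS : ∀ u ∈ (Q : Subgroup SL(2, F)), ∀ v ∈ (Q : Subgroup SL(2, F)), η (u, v) * σ ∈ (S : Subgroup G) :=
    fun u hu v hv => (hSmem _).2 ⟨u, hu, v, hv, Or.inr rfl⟩
  have h1Q := (Q : Subgroup SL(2, F)).one_mem
  have hσS : σ ∈ (S : Subgroup G) := by
    have := hησS 1 h1Q 1 h1Q
    rwa [show η ((1 : SL(2, F)), (1 : SL(2, F))) = 1 from map_one η, one_mul] at this
  have hτS : τ ∈ (S : Subgroup G) := hηS 1 h1Q _ d.neg_mem
  have hne : d.i * d.j ≠ d.j * d.i := by
    intro h
    rw [d.hji] at h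
    have hm : ((d.i * d.j : SL(2, F)) : Matrix (Fin 2) (Fin 2) F) = 0 := by
      ext r s
      have := congrArg (fun g : SL(2, F) => (g : Matrix (Fin 2) (Fin 2) F) r s) h
      simp at this ⊢
      exact mul_left_cancel₀ h2 (by linear_combination this)
    have hd' := (d.i * d.j).det_coe
    rw [hm, Matrix.det_zero] at hd'
    exact zero_ne_one hd'
  have hne1 := neg_one_ne_one (F := F) h2
  have hij1 : d.i ≠ 1 ∧ d.i ≠ -1 := by
    constructor <;> intro h <;> have h' := d.hii <;> rw [h] at h'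
    · exact hne1 (by simpa using h'.symm)
    · exact hne1 (by simpa using h'.symm)
  have hτ1 : τ ≠ 1 := by
    intro h
    rcases heq 1 (-1) 1 1 (h.trans (map_one η).symm) with h' | h'
    · exact hne1 h'.2
    · exact hne1 h'.1.symm
  have hτσ : τ * σ = σ * τ := by
    rw [hτ, hση]
    congr 1
    calc η (1, -1) = η (1, -1) * η (-1, -1) := by rw [hneg, mul_one]
      _ = η (-1, 1) := by rw [← map_mul, Prod.mk_mul_mk, one_mul, neg_mul_neg, one_mul]
  have hτη : ∀ a b, τ * η (a, b) = η (a, b) * τ := fun a b => by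
    rw [hτ, ← map_mul, ← map_mul, Prod.mk_mul_mk, Prod.mk_mul_mk]; simp
  -- the centre of `S`
  have hcen : ∀ z ∈ (S : Subgroup G), z ≠ 1 → (∀ s ∈ (S : Subgroup G), s * z = z * s) → z = τ := by
    intro z hz hz1 hzc
    obtain ⟨u, hu, v, hv, rfl | rfl⟩ := (hSmem z).1 hz
    · have hc : ∀ w ∈ (Q : Subgroup SL(2, F)), w * u = u * w := by
        intro w hw
        have h := hzc _ (hηS w hw 1 h1Q)
        rw [← map_mul, ← map_mul, Prod.mk_mul_mk, Prod.mk_mul_mk, one_mul, mul_one] at h
        rcases heq _ _ _ _ h with h' | h'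
        · exact h'.1
        · exfalso
          have hvv := congrArg (fun g : SL(2, F) => g * v⁻¹) h'.2
          simp at hvv
          exact hne1 hvv.symm
      have hu' := scalar_of_commute hne (hc _ d.hi).symm (hc _ d.hj).symm
      have h := hzc σ hσS
      rw [hση] at h
      rcases heq _ _ _ _ (mul_right_cancel h) with h' | h'
      · exfalso
        rcases hu' with rfl | rfl
        · rw [h'.1] at hz1; exact hz1 (map_one η)
        · rw [h'.1] at hz1; exact hz1 hneg
      · rcases hu' with rfl | rfl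
        · rw [show v = -1 from h'.1]
        · rw [show v = 1 by rw [h'.1, neg_neg]]
          calc η (-1, 1) = η (1, -1) * η (-1, -1) := by
                rw [← map_mul, Prod.mk_mul_mk, one_mul, neg_mul_neg, one_mul]
            _ = τ := by rw [hneg, mul_one]
    · exfalso
      have h := hzc _ (hηS d.i d.hi 1 h1Q)
      rw [mul_assoc (η (u, v)) σ, hση, ← mul_assoc, ← mul_assoc, ← map_mul, ← map_mul, Prod.mk_mul_mk,
        Prod.mk_mul_mk, one_mul, mul_one] at h
      rcases heq _ _ _ _ (mul_right_cancel h) with h' | h'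
      · exact hij1.1 (mul_eq_right.1 h'.1)
      · exact hij1.2 (mul_right_cancel (h'.1.trans (neg_one_mul u).symm))
  -- the twisting element
  obtain ⟨x0, θ, hθi, hθj, hxa, hx4, hxτ, hxσ⟩ := exists_twist h2 d.hii d.hjj d.hji
  refine FusionCrit.isSimple_of_normalizer_generation S ?_ ?_ ?_
  · intro h
    rw [h, Subgroup.mem_bot] at hτS
    exact hτ1 hτS
  · intro T hT
    rw [or_iff_not_imp_left]
    intro hT1
    obtain ⟨z, hzT, hz1, hzc⟩ := FusionCrit.exists_central_of_stronglyClosed S hT hT1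
    rw [hcen z (hT.1 hzT) hz1 hzc] at hzT
    have hclosed : ∀ t ∈ T, ∀ g s, g * t * g⁻¹ = s → s ∈ (S : Subgroup G) → s ∈ T := by
      rintro t ht g _ rfl hs
      exact FusionCrit.conj_mem_of_stronglyClosed S hT ht g hs
    have hσT : σ ∈ T := by
      obtain ⟨y, hy⟩ := exists_conj_swap (F := F) h2
      refine hclosed τ hzT (ρ y)⁻¹ σ ?_ hσS
      rw [inv_inv, mul_assoc, inv_mul_eq_iff_eq_mul]
      show ρ (pairHom (1, -1)) * ρ y = ρ y * ρ swapE
      rw [← map_mul, ← map_mul, hy]
    have huu : ∀ u ∈ (Q : Subgroup SL(2, F)), η (u, u⁻¹) ∈ T := by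
      intro u hu
      have h := hclosed σ hσT (η (u, 1)) (η (u, u⁻¹) * σ) (by
        rw [← map_inv, mul_assoc, Prod.inv_mk, inv_one, hση, ← mul_assoc, ← map_mul, Prod.mk_mul_mk,
          mul_one, one_mul]) (hησS u hu _ (inv_mem hu))
      simpa [mul_assoc, hσσ] using T.mul_mem h hσT
    have hfour : ∀ u ∈ (Q : Subgroup SL(2, F)), ∀ v ∈ (Q : Subgroup SL(2, F)), u * u = -1 → v * v = -1 →
        η (u, v) ∈ T := by
      intro u hu v hv huu' hvv
      have tr : ∀ w : SL(2, F), w * w = -1 →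
          (w : Matrix (Fin 2) (Fin 2) F) 0 0 + (w : Matrix (Fin 2) (Fin 2) F) 1 1 = 0 := by
        intro w hw
        by_contra htr
        have hch := Elusive.mul_self_two (w : Matrix (Fin 2) (Fin 2) F)
        rw [← Matrix.SpecialLinearGroup.coe_mul, hw, w.det_coe] at hch
        have hz : ∀ r s, (w : Matrix (Fin 2) (Fin 2) F) r s = 0 := by
          intro r s
          have := congrFun (congrFun hch r) s
          simp at this
          refine (mul_eq_zero.1 (?_ : ((w : Matrix (Fin 2) (Fin 2) F) 0 0 +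
            (w : Matrix (Fin 2) (Fin 2) F) 1 1) * (w : Matrix (Fin 2) (Fin 2) F) r s = 0)).resolve_left htr
          fin_cases r <;> fin_cases s <;> simp at this ⊢ <;> grind
        have := w.det_coe
        rw [Matrix.det_fin_two, hz, hz, hz, hz] at this
        simp at this
      have hui : u⁻¹ * u⁻¹ = -1 := by
        rw [← _root_.mul_inv_rev, huu', inv_eq_iff_mul_eq_one, neg_mul_neg, one_mul]
      obtain ⟨g, hg, hgv⟩ := Elusive.exists_conj_of_trace h2 v.det_coe (u⁻¹).det_coe
        ((tr v hvv).trans (tr _ hui).symm) (by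
          rw [tr v hvv, mul_zero]
          intro h
          exact mul_ne_zero h2 h2 (by linear_combination -h))
      let g' : SL(2, F) := ⟨g, hg⟩
      have hgv' : g' * u⁻¹ * g'⁻¹ = v := by
        rw [mul_inv_eq_iff_eq_mul]; exact Subtype.ext hgv.symm
      refine hclosed _ (huu u hu) (η (1, g')) _ ?_ (hηS u hu v hv)
      rw [← map_inv, ← map_mul, ← map_mul, Prod.inv_mk, Prod.mk_mul_mk, Prod.mk_mul_mk, inv_one, one_mul,
        mul_one, hgv']
    have hij : d.i * d.j * (d.i * d.j) = -1 := by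
      calc d.i * d.j * (d.i * d.j) = d.i * (d.j * d.i) * d.j := by group
        _ = -(d.i * d.i * (d.j * d.j)) := by rw [d.hji]; simp [mul_assoc]
        _ = -1 := by rw [d.hii, d.hjj]; simp
    have hone : ∀ v ∈ (Q : Subgroup SL(2, F)), v * v = -1 → η (1, v) ∈ T := by
      intro v hv hvv
      have := T.mul_mem (T.mul_mem (hfour _ d.hi v hv d.hii hvv) (hfour _ d.hj v hv d.hjj hvv))
        (T.inv_mem (hfour _ (mul_mem d.hi d.hj) v hv hij hvv))
      rw [← map_inv, ← map_mul, ← map_mul] at this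
      simpa using this
    have hall : ∀ v ∈ (Q : Subgroup SL(2, F)), η (1, v) ∈ T := by
      have : Subgroup.closure {v | v ∈ (Q : Subgroup SL(2, F)) ∧ v * v = -1} ≤
          T.comap (η.comp (MonoidHom.inr _ _)) := (Subgroup.closure_le _).2 fun v hv => hone v hv.1 hv.2
      exact fun v hv => this (d.gen hv)
    have hall' : ∀ u ∈ (Q : Subgroup SL(2, F)), η (u, 1) ∈ T := fun u hu =>
      hclosed _ (hall u hu) σ _ (hσc 1 u) (hηS u hu 1 h1Q)
    refine le_antisymm hT.1 fun x hx => ?_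
    obtain ⟨u, hu, v, hv, rfl | rfl⟩ := (hSmem x).1 hx
    · have := T.mul_mem (hall' u hu) (hall v hv)
      rwa [← map_mul, Prod.mk_mul_mk, mul_one, one_mul] at this
    · have := T.mul_mem (T.mul_mem (hall' u hu) (hall v hv)) hσT
      rwa [← map_mul, Prod.mk_mul_mk, mul_one, one_mul] at this
  · -- the normalizer of `S`
    set K := Subgroup.closure (FusionCrit.goodSet S) with hK
    have hSK : ∀ s ∈ (S : Subgroup G), s ∈ K := fun s hs =>
      Subgroup.subset_closure (FusionCrit.self_subset_goodSet S hs)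
    have hSn : ∀ g, g ∈ Subgroup.normalizer ((S : Subgroup G) : Set G) → ∀ s ∈ (S : Subgroup G),
        g * s * g⁻¹ ∈ (S : Subgroup G) := fun g hg s hs => (Subgroup.mem_normalizer_iff.1 hg s).1 hs
    have hnorm : ∀ a b : SL(2, F), η (a, b) ∈ Subgroup.normalizer ((S : Subgroup G) : Set G) →
        (∀ w ∈ (Q : Subgroup SL(2, F)), a * w * a⁻¹ ∈ (Q : Subgroup SL(2, F))) ∧
        a⁻¹ * b ∈ (Q : Subgroup SL(2, F)) := by
      intro a b hab
      have hfix : ∀ r : SL(2, F), r ∈ (Q : Subgroup SL(2, F)) ∨ -r ∈ (Q : Subgroup SL(2, F)) →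
          r ∈ (Q : Subgroup SL(2, F)) := by
        rintro r (h | h)
        · exact h
        · simpa using mul_mem d.neg_mem h
      have hA : ∀ w ∈ (Q : Subgroup SL(2, F)), a * w * a⁻¹ ∈ (Q : Subgroup SL(2, F)) := by
        intro w hw
        have h := hSn _ hab _ (hηS w hw 1 h1Q)
        rw [← map_inv, ← map_mul, ← map_mul, Prod.inv_mk, Prod.mk_mul_mk, Prod.mk_mul_mk] at h
        obtain ⟨u, hu, v, -, h' | h'⟩ := (hSmem _).1 h
        · refine hfix _ ?_
          rcases heq _ _ _ _ h' with e | e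
          · exact Or.inl (e.1 ▸ hu)
          · exact Or.inr (by rw [e.1, neg_neg]; exact hu)
        · exact absurd h' (hno _ _ _ _)
      refine ⟨hA, ?_⟩
      have h := hSn _ hab _ hσS
      rw [← map_inv, mul_assoc, Prod.inv_mk, hση, ← mul_assoc, ← map_mul, Prod.mk_mul_mk] at h
      obtain ⟨u, hu, v, hv, h' | h'⟩ := (hSmem _).1 h
      · exact absurd h'.symm (hno _ _ _ _)
      · have hab' : a * b⁻¹ ∈ (Q : Subgroup SL(2, F)) := by
          refine hfix _ ?_
          rcases heq _ _ _ _ (mul_right_cancel h') with e | e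
          · exact Or.inl (e.1 ▸ hu)
          · exact Or.inr (by rw [e.1, neg_neg]; exact hu)
        have han : a ∈ Subgroup.normalizer ((Q : Subgroup SL(2, F)) : Set SL(2, F)) :=
          Subgroup.mem_normalizer_fintype hA
        have := (Subgroup.mem_normalizer_iff''.1 han _).1 (inv_mem hab')
        simpa [mul_assoc] using this
    have hdiag : ∀ a : SL(2, F), (∀ w ∈ (Q : Subgroup SL(2, F)), a * w * a⁻¹ ∈ (Q : Subgroup SL(2, F))) →
        η (a, a) ∈ K := by
      intro a ha
      rcases hd with hd | ⟨hgen, hconj, hinvQ, htwist⟩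
      · exact hSK _ (hηS a (hd a ha) a (hd a ha))
      obtain ⟨a', ha3, harest, ha', hb⟩ := htwist a ha θ hθi hθj
      suffices h : η (a', a') ∈ K by
        have := K.mul_mem h (hSK _ (hηS _ harest _ harest))
        rwa [← map_mul, Prod.mk_mul_mk, mul_inv_cancel_left] at this
      -- the elementary abelian subgroup
      set E := Subgroup.closure ({η (d.i, d.i), η (d.j, d.j), τ, σ} : Set G) with hE
      have hES : E ≤ (S : Subgroup G) := by
        rw [hE, Subgroup.closure_le]
        rintro _ (rfl | rfl | rfl | rfl)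
        · exact hηS _ d.hi _ d.hi
        · exact hηS _ d.hj _ d.hj
        · exact hτS
        · exact hσS
      have hτE : τ ∈ E := Subgroup.subset_closure (Or.inr (Or.inr (Or.inl rfl)))
      have hσE : σ ∈ E := Subgroup.subset_closure (Or.inr (Or.inr (Or.inr rfl)))
      have hdE : ∀ u ∈ (Q : Subgroup SL(2, F)), η (u, u) ∈ E := by
        have : Subgroup.closure {d.i, d.j} ≤ E.comap (η.comp ((MonoidHom.id SL(2, F)).prod (MonoidHom.id _))) :=
          (Subgroup.closure_le _).2 (by
            rintro _ (rfl | rfl)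
            · exact Subgroup.subset_closure (Or.inl rfl)
            · exact Subgroup.subset_closure (Or.inr (Or.inl rfl)))
        exact fun u hu => this (hgen u hu)
      have hsign : ∀ u ∈ (Q : Subgroup SL(2, F)), ∀ v, v = u ∨ v = -u → η (u, v) ∈ E := by
        rintro u hu v (rfl | rfl)
        · exact hdE _ hu
        · have := E.mul_mem (hdE u hu) hτE
          rwa [hτ, ← map_mul, Prod.mk_mul_mk, mul_one, mul_neg, mul_one] at this
      have hEnorm : ∀ g, g * η (d.i, d.i) * g⁻¹ ∈ E → g * η (d.j, d.j) * g⁻¹ ∈ E → g * τ * g⁻¹ ∈ E →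
          g * σ * g⁻¹ ∈ E → g ∈ Subgroup.normalizer (E : Set G) := by
        intro g g1 g2 g3 g4
        have hle : E ≤ E.comap (MulAut.conj g).toMonoidHom := (Subgroup.closure_le _).2 (by
          rintro _ (rfl | rfl | rfl | rfl) <;> assumption)
        exact Subgroup.mem_normalizer_fintype fun n hn => hle hn
      have hηN : ∀ u ∈ (Q : Subgroup SL(2, F)), ∀ v ∈ (Q : Subgroup SL(2, F)),
          η (u, v) ∈ Subgroup.normalizer (E : Set G) := by
        intro u hu v hv
        have c : ∀ w ∈ (Q : Subgroup SL(2, F)), η (u, v) * η (w, w) * (η (u, v))⁻¹ ∈ E := by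
          intro w hw
          rw [← map_inv, ← map_mul, ← map_mul, Prod.inv_mk, Prod.mk_mul_mk, Prod.mk_mul_mk]
          refine hsign _ (mul_mem (mul_mem hu hw) (inv_mem hu)) _ ?_
          rcases hconj u hu w hw with e | e <;> rcases hconj v hv w hw with e' | e' <;> rw [e, e'] <;> simp
        refine hEnorm _ (c _ d.hi) (c _ d.hj) (by rw [← hτη, mul_inv_cancel_right]; exact hτE) ?_
        rw [← map_inv, mul_assoc, Prod.inv_mk, hση, ← mul_assoc, ← map_mul, Prod.mk_mul_mk]
        refine E.mul_mem (hsign _ (mul_mem hu (inv_mem hv)) _ ?_) hσE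
        rw [show v * u⁻¹ = (u * v⁻¹)⁻¹ by group]
        exact hinvQ _ (mul_mem hu (inv_mem hv))
      have hSE : (S : Subgroup G) ≤ Subgroup.normalizer (E : Set G) := by
        intro s hs
        obtain ⟨u, hu, v, hv, rfl | rfl⟩ := (hSmem s).1 hs
        · exact hηN u hu v hv
        · exact mul_mem (hηN u hu v hv) (Subgroup.le_normalizer hσE)
      have hCE : centralizerIn (S : Subgroup G) E ≤ E := by
        rintro s ⟨hs, hsc⟩
        have hcs := hsc σ hσE
        obtain ⟨u, hu, v, hv, rfl | rfl⟩ := (hSmem s).1 hs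
        · rw [hση] at hcs
          refine hsign u hu v ?_
          rcases heq _ _ _ _ (mul_right_cancel hcs) with e | e
          · exact Or.inl e.1
          · exact Or.inr e.1
        · rw [← mul_assoc, hση] at hcs
          refine E.mul_mem (hsign u hu v ?_) hσE
          rcases heq _ _ _ _ (mul_right_cancel (mul_right_cancel hcs)) with e | e
          · exact Or.inl e.1
          · exact Or.inr e.1
      have ha'N : η (a', a') ∈ Subgroup.normalizer (E : Set G) := by
        have c : ∀ w ∈ (Q : Subgroup SL(2, F)), η (a', a') * η (w, w) * (η (a', a'))⁻¹ ∈ E := by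
          intro w hw
          rw [← map_inv, ← map_mul, ← map_mul, Prod.inv_mk, Prod.mk_mul_mk, Prod.mk_mul_mk]
          exact hdE _ (ha' w hw)
        refine hEnorm _ (c _ d.hi) (c _ d.hj) (by rw [← hτη, mul_inv_cancel_right]; exact hτE) ?_
        rw [← hση, mul_inv_cancel_right]; exact hσE
      set x := ρ x0 with hx
      have hxη : ∀ b, x * η (b, b) * x⁻¹ = η (θ b, θ b) := fun b => by
        rw [mul_inv_eq_iff_eq_mul]
        show ρ x0 * ρ (pairHom (b, b)) = ρ (pairHom (θ b, θ b)) * ρ x0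
        rw [← map_mul, ← map_mul, hxa]
      have hxN : x ∈ Subgroup.normalizer (E : Set G) := by
        refine hEnorm _ ?_ ?_ ?_ ?_
        · rw [hxη, hθi]; exact hdE _ (by simpa using mul_mem d.neg_mem d.hj)
        · rw [hxη, hθj]; exact hdE _ (by simpa using mul_mem d.neg_mem d.hi)
        · have : x * τ = σ * x := by
            show ρ x0 * ρ (pairHom (1, -1)) = ρ swapE * ρ x0
            rw [← map_mul, ← map_mul, hxτ]
          rw [this, mul_inv_cancel_right]; exact hσE
        · have : x * σ = τ * x := by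
            show ρ x0 * ρ swapE = ρ (pairHom (1, -1)) * ρ x0
            rw [← map_mul, hxσ, map_mul, map_mul, show ρ (pairHom ((-1 : SL(2, F)), (-1 : SL(2, F)))) = 1 from hneg,
              one_mul]
          rw [this, mul_inv_cancel_right]; exact hτE
      have hx2 : ∀ g, g ∈ Subgroup.normalizer (E : Set G) → g ^ 4 = 1 →
          g ∈ {y : G | y ∈ Subgroup.normalizer (E : Set G) ∧ ∃ k : ℕ, orderOf y = 2 ^ k} := fun g hg hg4 => by
        obtain ⟨k, -, hk⟩ := (Nat.dvd_prime_pow Nat.prime_two).1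
          (orderOf_dvd_of_pow_eq_one (x := g) (n := 2 ^ 2) hg4)
        exact ⟨hg, k, hk⟩
      have hx4' : x ^ 4 = 1 := by rw [hx, ← map_pow, hx4]; exact hneg
      set b := θ a' * a' with hb'
      have hanS : η (a', a') ∈ Subgroup.normalizer ((S : Subgroup G) : Set G) :=
        Subgroup.mem_normalizer_fintype fun s hs => by
          obtain ⟨u, hu, v, hv, rfl | rfl⟩ := (hSmem s).1 hs
          · rw [← map_inv, ← map_mul, ← map_mul, Prod.inv_mk, Prod.mk_mul_mk, Prod.mk_mul_mk]
            exact hηS _ (ha' u hu) _ (ha' v hv)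
          · rw [← mul_assoc, ← map_mul, ← map_inv, mul_assoc, Prod.inv_mk, hση, ← mul_assoc, ← map_mul,
              Prod.mk_mul_mk, Prod.mk_mul_mk]
            exact hησS _ (ha' u hu) _ (ha' v hv)
      have hc : η (a' * (a' * b⁻¹), a' * (a' * b⁻¹)) =
          (η (a', a') * x * (η (a', a'))⁻¹) * x⁻¹ := by
        have e : θ (a'⁻¹) = a' * b⁻¹ := by rw [hb', map_inv, _root_.mul_inv_rev, mul_inv_cancel_left]
        calc η (a' * (a' * b⁻¹), a' * (a' * b⁻¹)) = η (a', a') * η (θ a'⁻¹, θ a'⁻¹) := by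
              rw [← map_mul, e, Prod.mk_mul_mk]
          _ = η (a', a') * (x * η (a'⁻¹, a'⁻¹) * x⁻¹) := by rw [hxη]
          _ = _ := by rw [show η (a'⁻¹, a'⁻¹) = (η (a', a'))⁻¹ by rw [← map_inv, Prod.inv_mk]]; group
      have hgood : η (a' * (a' * b⁻¹), a' * (a' * b⁻¹)) ∈ K := by
        refine Subgroup.subset_closure ⟨?_, E, hES, hSE, hCE, ?_⟩
        · rw [show η (a' * (a' * b⁻¹), a' * (a' * b⁻¹)) = η (a', a') * η (a', a') * (η (b, b))⁻¹ by
            rw [← map_inv, ← map_mul, ← map_mul, Prod.inv_mk, Prod.mk_mul_mk, Prod.mk_mul_mk, mul_assoc]]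
          exact mul_mem (mul_mem hanS hanS) (inv_mem (Subgroup.le_normalizer (hηS _ hb _ hb)))
        · rw [hc]
          refine mul_mem (Subgroup.subset_closure (hx2 _ (mul_mem (mul_mem ha'N hxN) (inv_mem ha'N)) ?_))
            (inv_mem (Subgroup.subset_closure (hx2 _ hxN hx4')))
          rw [conj_pow, hx4', mul_one, mul_inv_cancel]
      have h2' : η (a' * a', a' * a') ∈ K := by
        have := K.mul_mem hgood (hSK _ (hηS _ hb _ hb))
        rwa [← map_mul, Prod.mk_mul_mk, mul_assoc, inv_mul_cancel_right] at this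
      have := K.mul_mem h2' h2'
      rwa [← map_mul, Prod.mk_mul_mk, show a' * a' * (a' * a') = a' by
        rw [show a' * a' * (a' * a') = a' ^ 3 * a' by simp only [pow_succ, pow_zero, one_mul, mul_assoc], ha3,
          one_mul]] at this
    intro g hg
    have hgτ : g * τ * g⁻¹ = τ := by
      refine hcen _ (hSn g hg τ hτS) (fun h => hτ1 ?_) fun s hs => ?_
      · rw [mul_inv_eq_one, mul_eq_left] at h; exact h
      · have hs' : g⁻¹ * s * g ∈ (S : Subgroup G) := (Subgroup.mem_normalizer_iff''.1 hg s).1 hs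
        have hcomm : (g⁻¹ * s * g) * τ = τ * (g⁻¹ * s * g) := by
          obtain ⟨u, hu, v, hv, e | e⟩ := (hSmem _).1 hs'
          · rw [e, hτη]
          · rw [e, mul_assoc, ← hτσ, ← mul_assoc, ← hτη, mul_assoc]
        calc s * (g * τ * g⁻¹) = g * ((g⁻¹ * s * g) * τ) * g⁻¹ := by group
          _ = _ := by rw [hcomm]; group
    obtain ⟨γ, rfl⟩ := hρs g
    have hpair : ∀ u : SL(2, F) × SL(2, F), η u ∈ Subgroup.normalizer ((S : Subgroup G) : Set G) → η u ∈ K := by
      rintro ⟨a, b⟩ h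
      obtain ⟨hA, hB⟩ := hnorm a b h
      have := K.mul_mem (hdiag a hA) (hSK _ (hηS 1 h1Q _ hB))
      rwa [← map_mul, Prod.mk_mul_mk, mul_one, mul_inv_cancel_left] at this
    have hγ : ρ ((γ * pairHom (1, -1) * γ⁻¹) * (pairHom (1, -1))⁻¹) = 1 := by
      rw [map_mul, map_mul, map_mul, map_inv, map_inv]
      exact mul_inv_eq_one.2 hgτ
    rcases (hker _).1 hγ with h | h
    · rw [mul_inv_eq_one, mul_inv_eq_iff_eq_mul] at h
      obtain ⟨u, rfl⟩ := mem_range_of_commute h2 h
      exact hpair u hg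
    · rw [mul_inv_eq_iff_eq_mul, mul_inv_eq_iff_eq_mul] at h
      have hsw : swapE * pairHom (1, -1) =
          pairHom ((-1 : SL(2, F)), (-1 : SL(2, F))) * (pairHom (1, -1) * swapE) := by
        rw [swapE_mul_pairHom, ← mul_assoc, ← map_mul, Prod.mk_mul_mk, mul_one, neg_mul_neg, one_mul]
      have hcomm : (γ * swapE) * pairHom (1, -1) = pairHom (1, -1) * (γ * swapE) := by
        rw [mul_assoc, hsw, ← mul_assoc γ, pairHom_neg_comm γ, mul_assoc, ← mul_assoc γ, h,
          ← mul_assoc (pairHom ((-1 : SL(2, F)), (-1 : SL(2, F)))), ← mul_assoc (pairHom ((-1 : SL(2, F)), (-1 : SL(2, F)))),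
          ← mul_assoc (pairHom ((-1 : SL(2, F)), (-1 : SL(2, F)))), ← map_mul, Prod.mk_mul_mk, neg_mul_neg,
          one_mul, show pairHom ((1 : SL(2, F)), (1 : SL(2, F))) = 1 from map_one _, one_mul, mul_assoc]
      obtain ⟨u, hu⟩ := mem_range_of_commute h2 hcomm
      have hγ' : ρ γ = η u * σ := by
        show ρ γ = ρ (pairHom u) * ρ swapE
        rw [hu, ← map_mul, mul_assoc, swapE_sq, mul_one]
      rw [hγ'] at hg ⊢
      refine K.mul_mem (hpair u ?_) (hSK _ hσS)
      have := mul_mem hg (inv_mem (Subgroup.le_normalizer hσS))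
      rwa [mul_inv_cancel_right] at this

end Abstract

theorem isSimple_PSp_four [Fintype F] (hodd : Fintype.card F % 2 = 1) (S : Sylow 2 (Cfsg.PSp 2 F)) :
    (groupFusionSystem (S : Subgroup (Cfsg.PSp 2 F))).IsSimple 2 := by
  classical
  haveI : Fact (Nat.Prime 2) := ⟨Nat.prime_two⟩
  have hodd' : Odd (Fintype.card F) := Nat.odd_iff.2 hodd
  have h2 := Linear.two_ne_zero_of_odd_card hodd'
  obtain ⟨Q⟩ : Nonempty (Sylow 2 SL(2, F)) := inferInstance
  let f : ↥(Q : Subgroup SL(2, F)) × ↥(Q : Subgroup SL(2, F)) × Bool → Sp4 := fun u =>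
    pairHom ((u.1 : SL(2, F)), (u.2.1 : SL(2, F))) * (if u.2.2 then swapE else 1)
  have hfi : Function.Injective f := by
    rintro ⟨a, b, e⟩ ⟨a', b', e'⟩ h
    simp only [f] at h
    cases e <;> cases e' <;> simp only [Bool.false_eq_true, if_false, if_true, mul_one] at h
    · have h' := Prod.mk.injEq _ _ _ _ ▸ pairHom_injective h
      exact Prod.ext (Subtype.ext h'.1) (Prod.ext (Subtype.ext h'.2) rfl)
    · exact absurd (show swapE = pairHom (((a' : SL(2, F)), (b' : SL(2, F)))⁻¹ * ((a : SL(2, F)), (b : SL(2, F)))) by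
        rw [map_mul, map_inv, h, inv_mul_cancel_left]) (swapE_ne_pairHom _)
    · exact absurd (show swapE = pairHom (((a : SL(2, F)), (b : SL(2, F)))⁻¹ * ((a' : SL(2, F)), (b' : SL(2, F)))) by
        rw [map_mul, map_inv, ← h, inv_mul_cancel_left]) (swapE_ne_pairHom _)
    · have h' := Prod.mk.injEq _ _ _ _ ▸ pairHom_injective (mul_right_cancel h)
      exact Prod.ext (Subtype.ext h'.1) (Prod.ext (Subtype.ext h'.2) rfl)
  let P : Subgroup Sp4 :=
    { carrier := Set.range f
      one_mem' := ⟨(1, 1, false), by simp [f]; exact map_one pairHom⟩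
      mul_mem' := by
        rintro _ _ ⟨⟨a, b, e⟩, rfl⟩ ⟨⟨a', b', e'⟩, rfl⟩
        cases e
        · exact ⟨(a * a', b * b', e'), by
            simp [f, ← mul_assoc]; rw [← map_mul]; rfl⟩
        · cases e'
          · exact ⟨(a * b', b * a', true), by
              simp [f, mul_assoc, swapE_mul_pairHom]; rw [← mul_assoc, ← map_mul]; rfl⟩
          · exact ⟨(a * b', b * a', false), by
              simp [f, mul_assoc]
              rw [← mul_assoc swapE, swapE_mul_pairHom, mul_assoc, swapE_sq, mul_one, ← map_mul]; rfl⟩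
      inv_mem' := by
        rintro _ ⟨⟨a, b, e⟩, rfl⟩
        cases e
        · exact ⟨(a⁻¹, b⁻¹, false), by simp [f]; rw [← map_inv]; rfl⟩
        · exact ⟨(b⁻¹, a⁻¹, true), by
            simp [f, swapE_inv]; rw [← map_inv, Prod.inv_mk, swapE_mul_pairHom]⟩ }
  obtain ⟨j, hj⟩ := Q.2.exists_card_eq
  have hPc : Nat.card P = 2 ^ (2 * j + 1) := by
    show Nat.card (Set.range f) = _
    rw [Nat.card_range_of_injective hfi, Nat.card_prod, Nat.card_prod, hj, Nat.card_eq_fintype_card,
      Fintype.card_bool]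
    ring
  have hPi : ¬ 2 ∣ P.index := by
    obtain ⟨m, hm, hcard⟩ := exists_card_eq (F := F) hodd
    have hQi : ¬ 2 ∣ (Q : Subgroup SL(2, F)).index := Q.not_dvd_index' Subgroup.index_ne_zero_of_finite
    have key : P.index * Nat.card P = ((Q : Subgroup SL(2, F)).index ^ 2 * m) * Nat.card P := by
      rw [mul_comm, Subgroup.card_mul_index, hcard, ← (Q : Subgroup SL(2, F)).card_mul_index, hPc, hj]
      ring
    rw [Nat.eq_of_mul_eq_mul_right Nat.card_pos key, ← even_iff_two_dvd, Nat.not_even_iff_odd]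
    exact (Nat.not_even_iff_odd.1 (fun h => hQi h.two_dvd)).pow.mul hm
  let P4 : Sylow 2 Sp4 := (IsPGroup.of_card hPc).toSylow hPi
  let mk := QuotientGroup.mk' (Subgroup.center (Matrix.symplecticGroup (Fin 2) F))
  let S' : Sylow 2 (Cfsg.PSp 2 F) := P4.mapSurjective (QuotientGroup.mk'_surjective
    (Subgroup.center (Matrix.symplecticGroup (Fin 2) F)))
  obtain ⟨c, hc⟩ := MulAction.exists_smul_eq (Cfsg.PSp 2 F) S' S
  let ρ : Sp4 →* Cfsg.PSp 2 F := (MulAut.conj c).toMonoidHom.comp mk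
  refine isSimple_of_hom ρ hodd' ((MulAut.conj c).surjective.comp (QuotientGroup.mk'_surjective _)) ?_ Q S ?_
  · have hz : pairHom ((-1 : SL(2, F)), (-1 : SL(2, F))) ∈ Subgroup.center Sp4 :=
      Subgroup.mem_center_iff.2 pairHom_neg_comm
    have hzne : pairHom ((-1 : SL(2, F)), (-1 : SL(2, F))) ≠ 1 := fun h => by
      rw [← map_one (pairHom (F := F))] at h
      exact neg_one_ne_one h2 (congrArg Prod.fst (pairHom_injective h))
    have hcard : Nat.card (Subgroup.center Sp4) = 2 := by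
      rw [Cfsg.Agent.S0246.result rfl 2 (by norm_num)]
      exact Nat.gcd_eq_left (by omega)
    intro g
    have e : ρ g = 1 ↔ g ∈ Subgroup.center Sp4 := by
      rw [← QuotientGroup.eq_one_iff]
      exact map_eq_one_iff _ (MulAut.conj c).injective
    rw [e]
    constructor
    · intro hg
      by_contra hne
      push Not at hne
      haveI := Fintype.ofFinite (Subgroup.center Sp4)
      have h3 : ({1, ⟨_, hz⟩, ⟨g, hg⟩} : Finset (Subgroup.center Sp4)).card = 3 := by
        rw [Finset.card_eq_three]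
        exact ⟨_, _, _, fun h => hzne (congrArg Subtype.val h).symm,
          fun h => hne.1 (congrArg Subtype.val h).symm, fun h => hne.2 (congrArg Subtype.val h).symm, rfl⟩
      have := Finset.card_le_univ ({1, ⟨_, hz⟩, ⟨g, hg⟩} : Finset (Subgroup.center Sp4))
      rw [← Nat.card_eq_fintype_card, hcard] at this
      omega
    · rintro (rfl | rfl)
      · exact one_mem _
      · exact hz
  · intro x
    rw [← hc, Sylow.coe_subgroup_smul, Subgroup.mem_pointwise_smul_iff_inv_smul_mem]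
    show _ ∈ (P4 : Subgroup Sp4).map mk ↔ _
    rw [Subgroup.mem_map]
    constructor
    · rintro ⟨_, ⟨⟨a, b, e⟩, rfl⟩, he⟩
      have hx : x = ρ (f (a, b, e)) := by
        show x = MulAut.conj c (mk _)
        rw [he, ← map_inv, MulAut.smul_def]; simp [mul_assoc]
      refine ⟨a, a.2, b, b.2, ?_⟩
      cases e
      · exact Or.inl (by rw [hx]; simp [f])
      · exact Or.inr (by rw [hx]; simp [f])
    · rintro ⟨u, hu, v, hv, rfl | rfl⟩
      · refine ⟨pairHom (u, v), ⟨(⟨u, hu⟩, ⟨v, hv⟩, false), by simp [f]⟩, ?_⟩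
        rw [← map_inv, MulAut.smul_def]; simp [ρ, mul_assoc]
      · refine ⟨pairHom (u, v) * swapE, ⟨(⟨u, hu⟩, ⟨v, hv⟩, true), by simp [f]⟩, ?_⟩
        rw [← map_inv, MulAut.smul_def]; simp [ρ, mul_assoc]

end Cfsg.Agent.FusionSimple.SpF
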